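import Cfsg.Agent.SemiSymp.Conj
import Mathlib.RingTheory.Polynomial.Basic

/-!
# Counting semisimple classes of symplectic groups
-/

set_option autoImplicit false
set_option linter.style.haveILetI false
set_option linter.unusedSectionVars false

noncomputable section

open Polynomial
open scoped Matrix

namespace Cfsg.Agent.SemiSymp

variable {F : Type*} [Field F] {n : ℕ}

/-- The reciprocal polynomial attached to a polynomial of degree `n`. -/
def lift (n : ℕ) (h : F[X]) : F[X] := ∑ k ∈ Finset.range (n + 1), C (h.coeff k) * (X ^ 2 + 1) ^ k * X ^ (n - k)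

theorem lift_injective {h h' : F[X]} (hh : h.natDegree ≤ n) (hh' : h'.natDegree ≤ n)
    (he : lift n h = lift n h') : h = h' := by
  set d := h - h' with hd
  have hdl : lift n d = 0 := by
    simp only [lift, hd, coeff_sub, map_sub, sub_mul, Finset.sum_sub_distrib]
    exact sub_eq_zero.2 he
  by_contra hne
  have hd0 : d ≠ 0 := sub_ne_zero.2 hne
  have hdn : d.natDegree ≤ n := (natDegree_sub_le _ _).trans (max_le hh hh')
  have hc := congrArg (fun g : F[X] => g.coeff (n + d.natDegree)) hdl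
  simp only [lift, finsetSum_coeff, coeff_zero] at hc
  rw [Finset.sum_eq_single d.natDegree] at hc
  · apply leadingCoeff_ne_zero.2 hd0
    have hm : ((X : F[X]) ^ 2 + 1).Monic := monic_X_pow_add (by simp)
    have hnd : (((X : F[X]) ^ 2 + 1) ^ d.natDegree * X ^ (n - d.natDegree)).natDegree = n + d.natDegree := by
      rw [(hm.pow _).natDegree_mul (monic_X_pow _), natDegree_pow, natDegree_X_pow,
        show ((X : F[X]) ^ 2 + 1) = X ^ 2 + C 1 by simp, natDegree_X_pow_add_C]
      omega
    rw [mul_assoc, coeff_C_mul, ← hnd, ((hm.pow _).mul (monic_X_pow _)).coeff_natDegree, mul_one] at hc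
    exact hc
  · intro k hk hkd
    rw [mul_assoc, coeff_C_mul]
    rcases lt_or_gt_of_ne hkd with hlt | hgt
    · have : (((X : F[X]) ^ 2 + 1) ^ k * X ^ (n - k)).natDegree < n + d.natDegree := by
        refine lt_of_le_of_lt (natDegree_mul_le.trans (Nat.add_le_add natDegree_pow_le (natDegree_X_pow_le _))) ?_
        rw [show ((X : F[X]) ^ 2 + 1) = X ^ 2 + C 1 by simp, natDegree_X_pow_add_C]
        rw [Finset.mem_range] at hk
        omega
      rw [coeff_eq_zero_of_natDegree_lt this, mul_zero]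
    · rw [coeff_eq_zero_of_natDegree_lt hgt, zero_mul]
  · intro hnot
    exact absurd (Finset.mem_range.2 (by omega)) hnot

theorem det_smul_one_sub {m : Type*} [Fintype m] [DecidableEq m] {K : Type*} [Field K]
    (D : Matrix m m K) (v u : K) (hu : u ≠ 0) :
    (v • (1 : Matrix m m K) - u • D).det = u ^ Fintype.card m * D.charpoly.eval (v / u) := by
  rw [Matrix.eval_charpoly, ← Matrix.det_smul]
  congr 1
  rw [smul_sub, Matrix.scalar_apply, ← Matrix.smul_one_eq_diagonal, smul_smul, mul_div_cancel₀ _ hu]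

theorem charpoly_twisted {D : Matrix (Fin n) (Fin n) F} :
    (Matrix.fromBlocks (0 : Matrix (Fin n) (Fin n) F) (-1) 1 D).charpoly = lift n D.charpoly := by
  classical
  let ι : F[X] →+* FractionRing F[X] := algebraMap F[X] _
  have hι : Function.Injective ι := IsFractionRing.injective F[X] (FractionRing F[X])
  apply hι
  rw [Matrix.charpoly, RingHom.map_det]
  let D' : Matrix (Fin n) (Fin n) (FractionRing F[X]) := D.map (ι.comp C)
  set x : (FractionRing F[X]) := ι X with hx
  have hx0 : x ≠ 0 := fun e => X_ne_zero (hι (e.trans (map_zero ι).symm))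
  have hmat : ι.mapMatrix (Matrix.fromBlocks (0 : Matrix (Fin n) (Fin n) F) (-1) 1 D).charmatrix =
      Matrix.fromBlocks (x • 1) 1 (-1) (x • 1 - D') := by
    rw [Matrix.charmatrix, RingHom.mapMatrix_apply]
    ext (i | i) (j | j) <;> by_cases h : i = j <;>
      simp [h, D', x, Matrix.one_apply]
  rw [hmat]
  have hinv : Invertible (x • (1 : Matrix (Fin n) (Fin n) (FractionRing F[X]))) :=
    ⟨x⁻¹ • 1, by simp [smul_smul, hx0], by simp [smul_smul, hx0]⟩
  rw [Matrix.det_fromBlocks₁₁, Matrix.det_smul, Matrix.det_one, mul_one]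
  have hinv' : ⅟(x • (1 : Matrix (Fin n) (Fin n) (FractionRing F[X]))) = x⁻¹ • 1 :=
    invOf_eq_right_inv (by simp [smul_smul, hx0])
  rw [hinv', ← Matrix.det_smul, show x • (x • (1 : Matrix (Fin n) (Fin n) (FractionRing F[X])) - D' - -1 * x⁻¹ • 1 * 1) =
    (x ^ 2 + 1) • (1 : Matrix (Fin n) (Fin n) (FractionRing F[X])) - x • D' by
      simp [smul_sub, smul_smul, mul_inv_cancel₀ hx0, add_smul, sq]; abel]
  rw [det_smul_one_sub _ _ _ hx0, Fintype.card_fin, show D'.charpoly = D.charpoly.map (ι.comp C) from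
    Matrix.charpoly_map D (ι.comp C), eval_map]
  have hdeg : D.charpoly.natDegree ≤ n := by rw [Matrix.charpoly_natDegree_eq_dim, Fintype.card_fin]
  rw [eval₂_eq_sum_range' _ (Nat.lt_succ_of_le hdeg), lift, Finset.mul_sum, map_sum]
  refine Finset.sum_congr rfl fun k hk => ?_
  have hk' : k ≤ n := Nat.le_of_lt_succ (Finset.mem_range.1 hk)
  rw [map_mul, map_mul, map_pow, map_pow, map_add, map_one, map_pow, RingHom.comp_apply, ← hx, div_pow]
  have e : x ^ n = x ^ (n - k) * x ^ k := by rw [← pow_add, Nat.sub_add_cancel hk']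
  rw [e]
  field_simp

theorem exists_symp_charpoly [Finite F] (h : F[X]) (hm : h.Monic) (hd : h.natDegree = n) :
    ∃ g ∈ Matrix.symplecticGroup (Fin n) F, g.charpoly = lift n h := by
  classical
  subst hd
  let pb := AdjoinRoot.powerBasis hm.ne_zero
  obtain ⟨b⟩ : Nonempty (Module.Basis (Fin h.natDegree) F (AdjoinRoot h)) := ⟨pb.basis.reindex (finCongr rfl)⟩
  let μ : AdjoinRoot h →ₗ[F] F := (Polynomial.lcoeff F (h.natDegree - 1)).comp (AdjoinRoot.modByMonicHom hm)
  let Γ : Matrix (Fin h.natDegree) (Fin h.natDegree) F := Matrix.of fun i j => μ (b i * b j)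
  let Y := Algebra.leftMulMatrix b (AdjoinRoot.root h)
  have hΓt : Γᵀ = Γ := by ext i j; simp [Γ, mul_comm]
  have hΓa : ∀ i j, Γ i j = μ (b i * b j) := fun i j => rfl
  have hright : ∀ (z y : AdjoinRoot h), ∑ k, μ (z * b k) * b.repr y k = μ (z * y) := fun z y => by
    conv_rhs => rw [← b.sum_repr y, Finset.mul_sum, map_sum]
    exact Finset.sum_congr rfl fun k _ => by rw [mul_smul_comm, map_smul, smul_eq_mul, mul_comm]
  have hΓY : Γ * Y = Yᵀ * Γ := by
    ext i j
    simp only [Matrix.mul_apply, Matrix.transpose_apply, hΓa, Y, Algebra.leftMulMatrix_eq_repr_mul]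
    rw [hright, show ∑ k, b.repr (AdjoinRoot.root h * b i) k * μ (b k * b j) =
      ∑ k, μ (b j * b k) * b.repr (AdjoinRoot.root h * b i) k from
        Finset.sum_congr rfl fun k _ => by rw [mul_comm (b j), mul_comm], hright]
    congr 1
    ring
  have hnd : ∀ a : AdjoinRoot h, (∀ c, μ (a * c) = 0) → a = 0 := by
    intro a ha
    obtain ⟨g, rfl⟩ := AdjoinRoot.mk_surjective a
    rw [← AdjoinRoot.mk_leftInverse hm (AdjoinRoot.mk h g), AdjoinRoot.modByMonicHom_mk]
    by_contra hne
    have hg : g %ₘ h ≠ 0 := fun e => hne (by rw [e, map_zero])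
    have hlt : (g %ₘ h).natDegree < h.natDegree :=
      Polynomial.natDegree_lt_natDegree hg (Polynomial.degree_modByMonic_lt g hm)
    set r := g %ₘ h with hr
    have hmk : AdjoinRoot.mk h g = AdjoinRoot.mk h r := by
      rw [hr, ← AdjoinRoot.modByMonicHom_mk hm g, AdjoinRoot.mk_leftInverse hm]
    have h0 := ha (AdjoinRoot.mk h (X ^ (h.natDegree - 1 - r.natDegree)))
    rw [hmk, ← map_mul] at h0
    simp only [μ, LinearMap.comp_apply, AdjoinRoot.modByMonicHom_mk, lcoeff_apply] at h0
    rw [(modByMonic_eq_self_iff hm).2 (by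
        rw [degree_mul, degree_X_pow, degree_eq_natDegree hm.ne_zero, degree_eq_natDegree hg]
        exact_mod_cast (show r.natDegree + (h.natDegree - 1 - r.natDegree) < h.natDegree by omega)),
      coeff_mul_X_pow', if_pos (by omega),
      show h.natDegree - 1 - (h.natDegree - 1 - r.natDegree) = r.natDegree by omega] at h0
    exact hg (leadingCoeff_eq_zero.1 h0)
  have hΓu : IsUnit Γ := by
    rw [← Matrix.mulVec_injective_iff_isUnit]
    intro v w hvw
    have h' : Γ.mulVec (v - w) = 0 := by rw [Matrix.mulVec_sub, hvw, sub_self]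
    refine sub_eq_zero.1 ?_
    set y := b.equivFun.symm (v - w) with hy
    have hrep : ∀ k, b.repr y k = (v - w) k := fun k => by
      rw [hy, ← b.equivFun_apply, LinearEquiv.apply_symm_apply]
    have hy0 : y = 0 := by
      refine hnd y fun c => ?_
      have hb : ∀ i, μ (b i * y) = 0 := fun i => by
        rw [← hright]
        have := congrFun h' i
        simp only [Matrix.mulVec, dotProduct, Pi.zero_apply] at this
        simpa [hΓa, hrep] using this
      rw [mul_comm, ← b.sum_repr c, Finset.sum_mul, map_sum]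
      exact Finset.sum_eq_zero fun k _ => by rw [smul_mul_assoc, map_smul, hb, smul_zero]
    funext k
    rw [← hrep, hy0]
    simp
  have hΓd : IsUnit Γ.det := (Matrix.isUnit_iff_isUnit_det Γ).1 hΓu
  refine ⟨Matrix.fromBlocks 0 (-Γ⁻¹) Γ Yᵀ, ?_, ?_⟩
  · rw [SymplecticGroup.mem_iff, Matrix.fromBlocks_transpose, Matrix.J, Matrix.fromBlocks_multiply,
      Matrix.fromBlocks_multiply]
    have hΓi : (Γ⁻¹)ᵀ = Γ⁻¹ := by rw [Matrix.transpose_nonsing_inv, hΓt]
    simp [hΓt, hΓi, Matrix.nonsing_inv_mul _ hΓd, Matrix.mul_nonsing_inv _ hΓd, hΓY]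
  · let Tm : Matrix (Fin h.natDegree ⊕ Fin h.natDegree) (Fin h.natDegree ⊕ Fin h.natDegree) F :=
      Matrix.fromBlocks Γ 0 0 1
    let Ti : Matrix (Fin h.natDegree ⊕ Fin h.natDegree) (Fin h.natDegree ⊕ Fin h.natDegree) F :=
      Matrix.fromBlocks Γ⁻¹ 0 0 1
    let T : (Matrix (Fin h.natDegree ⊕ Fin h.natDegree) (Fin h.natDegree ⊕ Fin h.natDegree) F)ˣ :=
      ⟨Tm, Ti, by simp [Tm, Ti, Matrix.fromBlocks_multiply, Matrix.mul_nonsing_inv _ hΓd],
        by simp [Tm, Ti, Matrix.fromBlocks_multiply, Matrix.nonsing_inv_mul _ hΓd]⟩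
    have hT : (T : Matrix (Fin h.natDegree ⊕ Fin h.natDegree) (Fin h.natDegree ⊕ Fin h.natDegree) F) =
        Matrix.fromBlocks Γ 0 0 1 := rfl
    have hTi : (T : Matrix (Fin h.natDegree ⊕ Fin h.natDegree) (Fin h.natDegree ⊕ Fin h.natDegree) F)⁻¹ =
        Matrix.fromBlocks Γ⁻¹ 0 0 1 := by rw [← Matrix.coe_units_inv]; rfl
    rw [← Matrix.charpoly_units_conj T, hTi, hT, Matrix.fromBlocks_multiply,
      Matrix.fromBlocks_multiply]
    simp only [mul_zero, neg_zero, add_zero, zero_add, mul_one, one_mul, zero_mul, mul_neg, neg_mul,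
      Matrix.mul_nonsing_inv _ hΓd]
    rw [charpoly_twisted, Matrix.charpoly_transpose]
    congr 1
    have hgen := charpoly_leftMulMatrix pb
    rw [AdjoinRoot.minpoly_powerBasis_gen_of_monic hm] at hgen
    haveI : Module.Finite F (AdjoinRoot h) := hm.finite_adjoinRoot
    rw [show Y.charpoly = (Algebra.lmul F (AdjoinRoot h) (AdjoinRoot.root h)).charpoly from
      LinearMap.charpoly_toMatrix _ b]
    exact (LinearMap.charpoly_toMatrix _ pb.basis).symm.trans hgen

variable [Fintype F]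

/-- Palindromic coefficients. -/
theorem charpoly_symm {g : Matrix (Fin n ⊕ Fin n) (Fin n ⊕ Fin n) F}
    (hg : g ∈ Matrix.symplecticGroup (Fin n) F) {i : ℕ} (hi : i ≤ 2 * n) :
    g.charpoly.coeff (2 * n - i) = g.charpoly.coeff i := by
  have hd := SymplecticGroup.det_eq_one hg
  have hu : IsUnit g := (Matrix.isUnit_iff_isUnit_det g).2 (by rw [hd]; exact isUnit_one)
  have hJu : IsUnit (Matrix.J (Fin n) F) := (Matrix.isUnit_iff_isUnit_det _).2 (Matrix.isUnit_det_J _ _)
  obtain ⟨T, hT⟩ := hJu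
  have h1 : g⁻¹.charpoly = g.charpoly := by
    rw [← SymplecticGroup.coe_inv' ⟨g, hg⟩, SymplecticGroup.coe_inv]
    have hTi : (T : Matrix _ _ F)⁻¹ = -Matrix.J (Fin n) F := by rw [hT, Matrix.J_inv]
    rw [← Matrix.charpoly_units_conj T, hTi, hT]
    have hJ := Matrix.J_squared (Fin n) F
    rw [show Matrix.J (Fin n) F * (-Matrix.J (Fin n) F * gᵀ * Matrix.J (Fin n) F) * -Matrix.J (Fin n) F =
      (Matrix.J (Fin n) F * Matrix.J (Fin n) F) * gᵀ * (Matrix.J (Fin n) F * Matrix.J (Fin n) F) by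
        simp [mul_assoc], hJ]
    simp
  rw [Matrix.charpoly_inv g hu, ← Matrix.reverse_charpoly, hd, Ring.inverse_one, map_one, mul_one,
    Fintype.card_sum, Fintype.card_fin, ← two_mul, pow_mul, neg_one_sq, one_pow, one_mul] at h1
  conv_rhs => rw [← h1]
  rw [coeff_reverse, Matrix.charpoly_natDegree_eq_dim, Fintype.card_sum, Fintype.card_fin, ← two_mul,
    revAt_le hi]

variable (p : ℕ) [Fact p.Prime] [CharP F p]

theorem charpoly_eq_of_mk_eq {A B : ↥(Matrix.symplecticGroup (Fin n) F)}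
    (h : ConjClasses.mk A = ConjClasses.mk B) :
    (A : Matrix (Fin n ⊕ Fin n) (Fin n ⊕ Fin n) F).charpoly =
      (B : Matrix (Fin n ⊕ Fin n) (Fin n ⊕ Fin n) F).charpoly := by
  obtain ⟨u, hu⟩ := ConjClasses.mk_eq_mk_iff_isConj.1 h
  let U := Units.map (Matrix.symplecticGroup (Fin n) F).subtype u
  have e : (U : Matrix (Fin n ⊕ Fin n) (Fin n ⊕ Fin n) F) * A = B * U :=
    congrArg Subtype.val hu
  rw [← Matrix.charpoly_units_conj U (A : Matrix (Fin n ⊕ Fin n) (Fin n ⊕ Fin n) F), e, mul_assoc,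
    Matrix.mul_nonsing_inv _ ((Matrix.isUnit_iff_isUnit_det _).1 U.isUnit), mul_one]

theorem orderOf_sp (g : Matrix.symplecticGroup (Fin n) F) (U : (Matrix (Fin n ⊕ Fin n) (Fin n ⊕ Fin n) F)ˣ)
    (hU : (U : Matrix (Fin n ⊕ Fin n) (Fin n ⊕ Fin n) F) = g) : orderOf U = orderOf g := by
  rw [← orderOf_units, hU, orderOf_submonoid]

set_option maxHeartbeats 800000 in
theorem sp_isConj (g h : Matrix.symplecticGroup (Fin n) F) (hg : (orderOf g).Coprime p)
    (hh : (orderOf h).Coprime p)
    (hc : (g : Matrix (Fin n ⊕ Fin n) (Fin n ⊕ Fin n) F).charpoly =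
      (h : Matrix (Fin n ⊕ Fin n) (Fin n ⊕ Fin n) F).charpoly) : IsConj g h := by
  classical
  let e := Matrix.reindexAlgEquiv F F (finSumFinEquiv (m := n) (n := n))
  let ψ := (Units.mapEquiv e.toMulEquiv : (Matrix (Fin n ⊕ Fin n) (Fin n ⊕ Fin n) F)ˣ ≃* GL (Fin (n + n)) F)
  have hgu : IsUnit (g : Matrix (Fin n ⊕ Fin n) (Fin n ⊕ Fin n) F) :=
    IsUnit.of_mul_eq_one_right _ (mem_iff_adj.1 g.2)
  have hhu : IsUnit (h : Matrix (Fin n ⊕ Fin n) (Fin n ⊕ Fin n) F) :=
    IsUnit.of_mul_eq_one_right _ (mem_iff_adj.1 h.2)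
  have hcoe : ∀ U, ((ψ U : GL (Fin (n + n)) F) : Matrix (Fin (n + n)) (Fin (n + n)) F).charpoly =
      (U : Matrix (Fin n ⊕ Fin n) (Fin n ⊕ Fin n) F).charpoly := fun U => Matrix.charpoly_reindex _ _
  have hg' : (orderOf hgu.unit).Coprime p := by rwa [orderOf_sp g _ rfl]
  have hh' : (orderOf hhu.unit).Coprime p := by rwa [orderOf_sp h _ rfl]
  have hconj := SemiGL.isConj_of_charpoly_eq p (ψ hgu.unit) (ψ hhu.unit)
    (by rwa [MulEquiv.orderOf_eq]) (by rwa [MulEquiv.orderOf_eq])
    (by rw [hcoe, hcoe]; exact hc)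
  obtain ⟨S', hS'⟩ := isConj_iff.1 hconj
  have hS : ψ.symm S' * hgu.unit * (ψ.symm S')⁻¹ = hhu.unit := by
    apply ψ.injective
    rw [map_mul, map_mul, map_inv, MulEquiv.apply_symm_apply, hS']
  obtain ⟨T, hT, hTc⟩ := exists_symplectic_conj p hg' (mem_iff_adj.1 g.2) (mem_iff_adj.1 h.2) hS
  refine isConj_iff.2 ⟨⟨T, mem_iff_adj.2 hT⟩, ?_⟩
  rw [mul_inv_eq_iff_eq_mul]
  refine Subtype.ext ?_
  exact congrArg Units.val (mul_inv_eq_iff_eq_mul.1 hTc)

set_option maxHeartbeats 800000 in
theorem card_sp (n : ℕ) :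
    Nat.card {c : ConjClasses ↥(Matrix.symplecticGroup (Fin n) F) //
      ∃ g : ↥(Matrix.symplecticGroup (Fin n) F), ConjClasses.mk g = c ∧ (orderOf g).Coprime p} =
      Fintype.card F ^ n := by
  classical
  choose g hg hord using fun c : {c : ConjClasses ↥(Matrix.symplecticGroup (Fin n) F) //
    ∃ g : ↥(Matrix.symplecticGroup (Fin n) F), ConjClasses.mk g = c ∧ (orderOf g).Coprime p} => c.2
  haveI : Finite {c : ConjClasses ↥(Matrix.symplecticGroup (Fin n) F) //
    ∃ g : ↥(Matrix.symplecticGroup (Fin n) F), ConjClasses.mk g = c ∧ (orderOf g).Coprime p} :=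
    Finite.of_injective (fun c => g c) fun c c' h => Subtype.ext (by rw [← hg c, ← hg c', show g c = g c' from h])
  let cp : ↥(Matrix.symplecticGroup (Fin n) F) → F[X] := fun g =>
    (g : Matrix (Fin n ⊕ Fin n) (Fin n ⊕ Fin n) F).charpoly
  refine le_antisymm ?_ ?_
  · have hinj : Function.Injective fun c => fun i : Fin n => (cp (g c)).coeff ((i : ℕ) + 1) := by
      intro c c' h
      have hdeg : ∀ c, (cp (g c)).natDegree = 2 * n := fun c => by
        rw [Matrix.charpoly_natDegree_eq_dim, Fintype.card_sum, Fintype.card_fin, two_mul]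
      have h0 : ∀ c, (cp (g c)).coeff (2 * n) = 1 := fun c => hdeg c ▸ (Matrix.charpoly_monic _).coeff_natDegree
      have hlow : ∀ i ≤ n, (cp (g c)).coeff i = (cp (g c')).coeff i := by
        intro i hi
        rcases i with _ | j
        · have a1 := charpoly_symm (g c).2 (i := 0) (Nat.zero_le _)
          have a2 := charpoly_symm (g c').2 (i := 0) (Nat.zero_le _)
          rw [Nat.sub_zero] at a1 a2
          exact a1.symm.trans ((h0 c).trans ((h0 c').symm.trans a2))
        · exact congrFun h ⟨j, by omega⟩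
      refine Subtype.ext ?_
      rw [← hg c, ← hg c']
      refine ConjClasses.mk_eq_mk_iff_isConj.2 (sp_isConj p _ _ (hord c) (hord c') ?_)
      refine Polynomial.ext fun i => ?_
      rcases lt_or_ge (2 * n) i with hi | hi
      · exact (coeff_eq_zero_of_natDegree_lt ((hdeg c).trans_lt hi)).trans
          (coeff_eq_zero_of_natDegree_lt ((hdeg c').trans_lt hi)).symm
      rcases le_or_gt i n with hin | hin
      · exact hlow i hin
      · rw [show i = 2 * n - (2 * n - i) by omega, charpoly_symm (g c).2 (by omega),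
          charpoly_symm (g c').2 (by omega)]
        exact hlow _ (by omega)
    refine (Nat.card_le_card_of_injective _ hinj).trans ?_
    rw [Nat.card_fun, Nat.card_fin, Nat.card_eq_fintype_card]
  · let mkp : (Fin n → F) → F[X] := fun c => X ^ n + ∑ i : Fin n, C (c i) * X ^ (i : ℕ)
    have hmon : ∀ c, (mkp c).Monic ∧ (mkp c).natDegree = n := fun c => by
      refine ⟨monic_X_pow_add (degree_sum_fin_lt _), natDegree_eq_of_degree_eq_some ?_⟩
      rw [degree_add_eq_left_of_degree_lt (by rw [degree_X_pow]; exact degree_sum_fin_lt _), degree_X_pow]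
    choose A hA hAc using fun c => exists_symp_charpoly (mkp c) (hmon c).1 (hmon c).2
    have hex : ∀ c, ∃ B : ↥(Matrix.symplecticGroup (Fin n) F), (orderOf B).Coprime p ∧ cp B = lift n (mkp c) := by
      intro c
      obtain ⟨N, hN⟩ := SemiGL.exists_pow_coprime (F := F) p (⟨A c, hA c⟩ : ↥(Matrix.symplecticGroup (Fin n) F))
      refine ⟨_, hN, ?_⟩
      simp only [cp, SubmonoidClass.coe_pow, SemiGL.charpoly_pow_card_pow]
      exact hAc c
    choose B hB hcp using hex
    let Φ : (Fin n → F) → {c : ConjClasses ↥(Matrix.symplecticGroup (Fin n) F) //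
        ∃ g : ↥(Matrix.symplecticGroup (Fin n) F), ConjClasses.mk g = c ∧ (orderOf g).Coprime p} := fun c =>
      ⟨ConjClasses.mk (B c), B c, rfl, hB c⟩
    have hinj : Function.Injective Φ := by
      intro c c' h
      have h2 : lift n (mkp c) = lift n (mkp c') := by
        rw [← hcp c, ← hcp c']
        exact charpoly_eq_of_mk_eq (congrArg Subtype.val h)
      have h3 := lift_injective (hmon c).2.le (hmon c').2.le h2
      funext i
      have h4 := congrArg (fun f : F[X] => f.coeff (i : ℕ)) h3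
      simp only [mkp, coeff_add, coeff_X_pow, if_neg i.2.ne, zero_add, finsetSum_coeff, coeff_C_mul_X_pow,
        Fin.val_inj, Finset.sum_ite_eq, Finset.mem_univ, if_true] at h4
      exact h4
    refine le_trans (le_of_eq ?_) (Nat.card_le_card_of_injective Φ hinj)
    rw [Nat.card_fun, Nat.card_fin, Nat.card_eq_fintype_card]

end Cfsg.Agent.SemiSymp
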