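import Cfsg.Agent.SemiUnitary.Ring
import Cfsg.Agent.SemiGL.Count
import Cfsg.Agent.Forms.Alternating

/-!
# Semisimple conjugacy in symplectic groups
-/

set_option autoImplicit false
set_option linter.style.haveILetI false
set_option linter.unusedSectionVars false

noncomputable section

open scoped Matrix
open Module

namespace Cfsg.Agent.SemiSymp

variable {F : Type*} [Field F] {l : Type*} [Fintype l] [DecidableEq l]

local notation "M" => Matrix (l ⊕ l) (l ⊕ l) F

/-- The adjoint for the standard alternating form. -/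
def adj (A : M) : M := -(Matrix.J l F * Aᵀ * Matrix.J l F)

theorem adj_mul (A B : M) : adj (A * B) = adj B * adj A := by
  simp only [adj, Matrix.transpose_mul, neg_mul, mul_neg, neg_neg]
  rw [show Matrix.J l F * Bᵀ * Matrix.J l F * (Matrix.J l F * Aᵀ * Matrix.J l F) =
    Matrix.J l F * Bᵀ * (Matrix.J l F * Matrix.J l F) * Aᵀ * Matrix.J l F by simp [mul_assoc],
    Matrix.J_squared]
  simp [mul_assoc]

theorem adj_adj (A : M) : adj (adj A) = A := by
  have hJ := Matrix.J_squared l F
  simp only [adj, Matrix.transpose_neg, Matrix.transpose_mul, Matrix.transpose_transpose,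
    Matrix.J_transpose, neg_mul, mul_neg, neg_neg]
  rw [show Matrix.J l F * (Matrix.J l F * (A * Matrix.J l F)) * Matrix.J l F =
    (Matrix.J l F * Matrix.J l F) * A * (Matrix.J l F * Matrix.J l F) by simp [mul_assoc], hJ]
  simp

theorem adj_add (A B : M) : adj (A + B) = adj A + adj B := by
  simp [adj, Matrix.transpose_add, mul_add, add_mul]; abel

theorem adj_neg (A : M) : adj (-A) = - adj A := by simp [adj, Matrix.transpose_neg]

theorem adj_sub (A B : M) : adj (A - B) = adj A - adj B := by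
  rw [sub_eq_add_neg, adj_add, adj_neg, ← sub_eq_add_neg]

theorem adj_one : adj (1 : M) = 1 := by simp [adj, Matrix.J_squared]

theorem adj_zero : adj (0 : M) = 0 := by simp [adj]

theorem adj_smul (r : F) (A : M) : adj (r • A) = r • adj A := by simp [adj]

theorem mem_iff_adj {A : M} : A ∈ Matrix.symplecticGroup l F ↔ adj A * A = 1 := by
  rw [SymplecticGroup.mem_iff']
  have hJ := Matrix.J_squared l F
  constructor
  · intro h
    rw [show adj A * A = -(Matrix.J l F * (Aᵀ * Matrix.J l F * A)) by simp [adj, mul_assoc], h, hJ,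
      neg_neg]
  · intro h
    calc Aᵀ * Matrix.J l F * A = -((Matrix.J l F * Matrix.J l F) * (Aᵀ * Matrix.J l F * A)) := by
          rw [hJ]; simp
      _ = Matrix.J l F * (adj A * A) := by simp [adj, mul_assoc]
      _ = _ := by rw [h, mul_one]

/-- The standard alternating form. -/
def form : LinearMap.BilinForm F (l ⊕ l → F) := Matrix.toBilin' (Matrix.J l F)

theorem form_apply (u v : l ⊕ l → F) : form (l := l) u v = u ⬝ᵥ (Matrix.J l F) *ᵥ v :=
  Matrix.toBilin'_apply' _ u v

theorem form_mulVec (A : M) (u v : l ⊕ l → F) : form (l := l) (A *ᵥ u) v = form (l := l) u (adj A *ᵥ v) := by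
  rw [form_apply, form_apply, dotProduct_comm, Matrix.dotProduct_mulVec, ← Matrix.mulVec_transpose,
    dotProduct_comm, Matrix.mulVec_mulVec, Matrix.mulVec_mulVec]
  congr 2
  simp [adj, mul_assoc, ← mul_assoc (Matrix.J l F) (Matrix.J l F), Matrix.J_squared]

theorem form_alt : (form (F := F) (l := l)).IsAlt := by
  intro v
  rw [form_apply]
  simp only [Matrix.J, Matrix.fromBlocks_mulVec, dotProduct, Fintype.sum_sum_type, Sum.elim_inl,
    Sum.elim_inr, Matrix.zero_mulVec, Matrix.neg_mulVec, Matrix.one_mulVec, zero_add, add_zero,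
    Pi.neg_apply, Function.comp_apply]
  rw [← Finset.sum_add_distrib]
  exact Finset.sum_eq_zero fun i _ => by ring

theorem form_left {u : l ⊕ l → F} (h : ∀ v, form (l := l) u v = 0) : u = 0 := by
  funext i
  have := h ((-Matrix.J l F) *ᵥ Pi.single i 1)
  rw [form_apply, Matrix.mulVec_mulVec, mul_neg, Matrix.J_squared, neg_neg, Matrix.one_mulVec,
    dotProduct_single_one] at this
  exact this

/-- On a fixed idempotent a form `(u, v) ↦ b (S u, S v)` is isometric to the original. -/
theorem exists_corner {e S : M} (he : e * e = e) (hadj : adj e = e) (hS : IsUnit S)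
    (hcomm : adj S * S * e = e * (adj S * S)) :
    ∃ c : M, c * e = c ∧ e * c = c ∧ adj c * c = adj S * S * e := by
  classical
  set H := adj S * S with hH
  have hHu : IsUnit H := by
    obtain ⟨T, rfl⟩ := hS
    refine IsUnit.of_mul_eq_one ((↑T⁻¹ : M) * adj (↑T⁻¹ : M)) ?_
    rw [hH, mul_assoc, ← mul_assoc (T : M), Units.mul_inv, one_mul, ← adj_mul, Units.inv_mul, adj_one]
  let W : Submodule F (l ⊕ l → F) := LinearMap.range (Matrix.toLin' e)
  have hW : ∀ w : W, e *ᵥ (w : l ⊕ l → F) = w := by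
    rintro ⟨_, v, rfl⟩
    simp [Matrix.toLin'_apply, Matrix.mulVec_mulVec, he]
  have hsplit : ∀ (w : W) (v : l ⊕ l → F), form (l := l) (w : l ⊕ l → F) v = form (l := l) (w : l ⊕ l → F) (e *ᵥ v) :=
    fun w v => by
      conv_lhs => rw [← hW w, form_mulVec, hadj]
  let B₁ : LinearMap.BilinForm F W := (form (l := l)).restrict W
  let S' : W →ₗ[F] (l ⊕ l → F) := (Matrix.toLin' S).comp W.subtype
  let B₂ : LinearMap.BilinForm F W := (form (l := l)).comp S' S'
  have hB₂ : ∀ x y : W, B₂ x y = form (l := l) (x : l ⊕ l → F) (H *ᵥ (y : l ⊕ l → F)) := fun x y => by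
    show form (l := l) (S *ᵥ (x : l ⊕ l → F)) (S *ᵥ (y : l ⊕ l → F)) = _
    rw [form_mulVec, Matrix.mulVec_mulVec]
  have hA₁ : B₁.IsAlt := fun x => form_alt _
  have hA₂ : B₂.IsAlt := fun x => form_alt _
  have hn₁ : B₁.Nondegenerate := LinearMap.BilinForm.nondegenerate_iff_ker_eq_bot.2
    (LinearMap.ker_eq_bot'.2 fun x hx => Subtype.ext (form_left fun v => by
      rw [hsplit]
      exact LinearMap.congr_fun hx ⟨e *ᵥ v, v, Matrix.toLin'_apply _ _⟩))
  have hn₂ : B₂.Nondegenerate := LinearMap.BilinForm.nondegenerate_iff_ker_eq_bot.2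
    (LinearMap.ker_eq_bot'.2 fun x hx => Subtype.ext (form_left fun v => by
      obtain ⟨T, hT⟩ := hHu
      have h := LinearMap.congr_fun hx ⟨e *ᵥ ((↑T⁻¹ : M) *ᵥ v), _, Matrix.toLin'_apply _ _⟩
      rw [hB₂, Matrix.mulVec_mulVec, hcomm, ← Matrix.mulVec_mulVec, ← hsplit, Matrix.mulVec_mulVec,
        ← hT, Units.mul_inv, Matrix.one_mulVec] at h
      exact h))
  obtain ⟨m₁, b₁, h11, h12, h13⟩ := Forms.exists_symplectic_basis hA₁ hn₁
  obtain ⟨m₂, b₂, h21, h22, h23⟩ := Forms.exists_symplectic_basis hA₂ hn₂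
  have hm : m₂ = m₁ := by
    have e1 := Module.finrank_eq_card_basis b₁
    have e2 := Module.finrank_eq_card_basis b₂
    rw [Fintype.card_sum, Fintype.card_fin] at e1 e2
    omega
  subst hm
  let φ : W ≃ₗ[F] W := b₂.equiv b₁ (Equiv.refl _)
  have hφ : ∀ x y, B₁ (φ x) (φ y) = B₂ x y := by
    suffices B₁.comp φ.toLinearMap φ.toLinearMap = B₂ from fun x y =>
      LinearMap.congr_fun (LinearMap.congr_fun this x) y
    refine LinearMap.BilinForm.ext_basis b₂ fun i j => ?_
    show B₁ (φ (b₂ i)) (φ (b₂ j)) = _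
    rw [Module.Basis.equiv_apply, Module.Basis.equiv_apply, Equiv.refl_apply, Equiv.refl_apply]
    rcases i with i | i <;> rcases j with j | j
    · rw [h12, h22]
    · rw [h11, h21]
    · rw [← hA₁.neg_eq, h11, ← hA₂.neg_eq, h21]
    · rw [h13, h23]
  let L : (l ⊕ l → F) →ₗ[F] (l ⊕ l → F) :=
    W.subtype.comp (φ.toLinearMap.comp (Matrix.toLin' e).rangeRestrict)
  have hL : ∀ v, (LinearMap.toMatrix' L) *ᵥ v = (φ ((Matrix.toLin' e).rangeRestrict v) : l ⊕ l → F) := fun v => by
    rw [LinearMap.toMatrix'_mulVec]; rfl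
  refine ⟨LinearMap.toMatrix' L, ?_, ?_, ?_⟩
  · refine Matrix.ext_iff_mulVec.2 fun v => ?_
    rw [← Matrix.mulVec_mulVec, hL, hL]
    congr 2
    refine Subtype.ext ?_
    show Matrix.toLin' e (e *ᵥ v) = Matrix.toLin' e v
    rw [Matrix.toLin'_apply, Matrix.mulVec_mulVec, he, Matrix.toLin'_apply]
  · refine Matrix.ext_iff_mulVec.2 fun v => ?_
    rw [← Matrix.mulVec_mulVec, hL, hW]
  · refine Matrix.ext_iff_mulVec.2 fun v => ?_
    refine sub_eq_zero.1 (form_left fun u => ?_)
    rw [map_sub, LinearMap.sub_apply, sub_eq_zero]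
    have key : ∀ a b : l ⊕ l → F, form (l := l) a ((adj (LinearMap.toMatrix' L) * LinearMap.toMatrix' L) *ᵥ b) =
        form (l := l) a ((H * e) *ᵥ b) := fun a b => by
      rw [← Matrix.mulVec_mulVec, ← form_mulVec, hL, hL]
      change B₁ (φ _) (φ _) = _
      rw [hφ, hB₂]
      show form (l := l) (e *ᵥ a) (H *ᵥ (e *ᵥ b)) = _
      rw [form_mulVec, hadj, Matrix.mulVec_mulVec, Matrix.mulVec_mulVec, ← hcomm, mul_assoc, he]
    rw [← (form_alt (F := F) (l := l)).neg_eq u, ← (form_alt (F := F) (l := l)).neg_eq u, key]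

variable [Fintype F]

set_option maxHeartbeats 1000000 in
/-- Symplectic elements of order prime to the characteristic conjugate in the general linear
group are conjugate in the symplectic group. -/
theorem exists_symplectic_conj (p : ℕ) [Fact p.Prime] [CharP F p] {g h S : Mˣ}
    (hord : (orderOf g).Coprime p)
    (hg : adj (g : M) * g = 1) (hh : adj (h : M) * h = 1) (hS : S * g * S⁻¹ = h) :
    ∃ T : Mˣ, adj (T : M) * T = 1 ∧ T * g * T⁻¹ = h := by
  classical
  rcases subsingleton_or_nontrivial M with hsub | hnt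
  · exact ⟨1, Subsingleton.elim _ _, Units.ext (Subsingleton.elim _ _)⟩
  obtain ⟨N, hN, hgN⟩ := SemiGL.exists_pow_eq_self (F := F) p hord
  obtain ⟨k, -, hcard⟩ := FiniteField.card F p
  set Q := Fintype.card F ^ N with hQ
  have hQ1 : 1 < Q := Nat.one_lt_pow hN.ne' Fintype.one_lt_card
  set H : M := adj (S : M) * S with hH
  have hSg : (S : M) * g = h * S := by
    rw [← Units.val_mul, ← Units.val_mul, ← hS, inv_mul_cancel_right]
  have hgi : (g : M) * adj (g : M) = 1 := mul_eq_one_comm.1 hg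
  have hHg : H * g = g * H := by
    have e1 : adj (g : M) * H * g = H := by
      rw [hH, ← mul_assoc, ← adj_mul, hSg, adj_mul, mul_assoc (adj (S : M) * adj (h : M)), hSg,
        show adj (S : M) * adj (h : M) * ((h : M) * S) = adj (S : M) * (adj (h : M) * h) * S by
          simp [mul_assoc], hh, mul_one]
    conv_rhs => rw [← e1, ← mul_assoc, ← mul_assoc, hgi, one_mul]
  have hHg' : H * adj (g : M) = adj (g : M) * H := by
    calc H * adj (g : M) = (adj (g : M) * g) * H * adj (g : M) := by rw [hg, one_mul]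
      _ = adj (g : M) * (H * g) * adj (g : M) := by rw [hHg]; simp [mul_assoc]
      _ = _ := by rw [show adj (g : M) * (H * g) * adj (g : M) = adj (g : M) * H * ((g : M) * adj (g : M)) by
            simp [mul_assoc], hgi, mul_one]
  have hadjH : adj H = H := by rw [hH, adj_mul, adj_adj]
  set s : Set M := {(g : M), adj (g : M), H} with hs
  haveI := Algebra.isMulCommutative_adjoin F (s := s) (by
    intro x hx y hy
    simp only [hs, Set.mem_insert_iff, Set.mem_singleton_iff] at hx hy
    rcases hx with rfl | rfl | rfl <;> rcases hy with rfl | rfl | rfl <;>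
      first
      | rfl
      | exact hgi.trans hg.symm
      | exact hg.trans hgi.symm
      | exact hHg
      | exact hHg.symm
      | exact hHg'
      | exact hHg'.symm)
  set A := Algebra.adjoin F s with hA
  letI : CommRing A := { (inferInstance : Ring A) with mul_comm := fun a b => mul_comm' a b }
  have hclosed : ∀ x ∈ A, adj x ∈ A := by
    intro x hx
    induction hx using Algebra.adjoin_induction with
    | mem x hx =>
      simp only [hs, Set.mem_insert_iff, Set.mem_singleton_iff] at hx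
      rcases hx with rfl | rfl | rfl
      · exact Algebra.subset_adjoin (by simp [hs])
      · rw [adj_adj]; exact Algebra.subset_adjoin (by simp [hs])
      · rw [hadjH]; exact Algebra.subset_adjoin (by simp [hs])
    | algebraMap r =>
      rw [Algebra.algebraMap_eq_smul_one, adj_smul, adj_one, ← Algebra.algebraMap_eq_smul_one]
      exact A.algebraMap_mem _
    | add x y _ _ hx hy => rw [adj_add]; exact A.add_mem hx hy
    | mul x y _ _ hx hy => rw [adj_mul]; exact A.mul_mem hy hx
  let σ : A ≃+* A :=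
    { toFun := fun x => ⟨adj (x : M), hclosed _ x.2⟩
      invFun := fun x => ⟨adj (x : M), hclosed _ x.2⟩
      left_inv := fun x => Subtype.ext (adj_adj _)
      right_inv := fun x => Subtype.ext (adj_adj _)
      map_mul' := fun x y => Subtype.ext (by
        show adj ((x : M) * (y : M)) = adj (x : M) * adj (y : M)
        have e : (x : M) * (y : M) = (y : M) * (x : M) := congrArg Subtype.val (mul_comm x y)
        rw [e, adj_mul])
      map_add' := fun x y => Subtype.ext (adj_add _ _) }
  have hσσ : ∀ x, σ (σ x) = x := fun x => Subtype.ext (adj_adj _)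
  let G : A := ⟨g, Algebra.subset_adjoin (by simp [hs])⟩
  let HA : A := ⟨H, Algebra.subset_adjoin (by simp [hs])⟩
  have hGinv : G * σ G = 1 := Subtype.ext hgi
  have hGQ : G ^ Q = G := Subtype.ext (by
    show ((G ^ Q : A) : M) = g
    rw [SubmonoidClass.coe_pow, ← Units.val_pow_eq_pow_val, hgN])
  -- powers giving idempotents
  set m := Q - 1 with hm
  have hm0 : m ≠ 0 := by omega
  haveI : CharP A p := charP_of_injective_algebraMap (algebraMap F A).injective p
  have hfrob : ∀ c : A, c ^ Q = c → (G - c) ^ Q = G - c := fun c hc => by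
    rw [hQ, hcard, ← pow_mul, sub_pow_char_pow, pow_mul, ← hcard, ← hQ, hGQ, hc]
  have hid : ∀ a : A, a ^ Q = a → a * a ^ m = a ∧ a ^ m * a ^ m = a ^ m := by
    intro a ha
    have h1 : a * a ^ m = a := by rw [← pow_succ', show m + 1 = Q by omega, ha]
    refine ⟨h1, ?_⟩
    have h2 : a ^ (m - 1) * a = a ^ m := by rw [← pow_succ, Nat.sub_add_cancel (by omega)]
    calc a ^ m * a ^ m = a ^ (m - 1) * (a * a ^ m) := by rw [← mul_assoc, h2]
      _ = a ^ m := by rw [h1, h2]
  have hnegQ : (-1 : A) ^ Q = -1 := by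
    have h0 := sub_pow_char_pow (R := A) (p := p) (n := (k : ℕ) * N) 0 1
    rw [zero_sub, one_pow, zero_pow (pow_ne_zero _ (Fact.out : p.Prime).ne_zero), zero_sub] at h0
    rw [hQ, hcard, ← pow_mul, h0]
  set a : A := G - 1 with ha
  set b : A := G - (-1) with hb
  obtain ⟨ha1, ha2⟩ := hid a (hfrob 1 (one_pow _))
  obtain ⟨hb1, hb2⟩ := hid b (hfrob (-1) hnegQ)
  have hσpow : ∀ c : A, c * c = 1 → σ c = c → (G - c) * (G - c) ^ m = G - c →
      (G - c) ^ m * (G - c) ^ m = (G - c) ^ m → σ ((G - c) ^ m) = (G - c) ^ m := by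
    intro c hc hσc h1 h2
    have e : σ (G - c) = -(σ G * c) * (G - c) := by
      rw [map_sub, hσc]
      linear_combination c * hGinv - σ G * hc
    have e' : (G - c) = -(G * c) * σ (G - c) := by
      rw [map_sub, hσc]
      linear_combination c * hGinv - G * hc
    set x := (G - c) ^ m
    have hx : σ x = (-(σ G * c)) ^ m * x := by rw [map_pow, e, mul_pow]
    have hy : x = (-(G * c)) ^ m * σ x := by
      rw [map_pow, ← mul_pow, ← e']
    have hσx : σ x * σ x = σ x := by rw [← map_mul, h2]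
    calc σ x = σ x * x := by linear_combination (1 - x) * hx - (-(σ G * c)) ^ m * h2
      _ = x := by linear_combination (σ x - 1) * hy + (-(G * c)) ^ m * hσx
  set e₁ : A := 1 - a ^ m with he₁
  set e₂ : A := (1 - b ^ m) * a ^ m with he₂
  set e₀ : A := a ^ m * b ^ m with he₀
  have hσa : σ (a ^ m) = a ^ m := hσpow 1 (mul_one 1) (map_one σ) ha1 ha2
  have hσb : σ (b ^ m) = b ^ m := hσpow (-1) (by ring) (by rw [map_neg, map_one]) hb1 hb2
  have hsum : e₁ + e₂ + e₀ = 1 := by rw [he₁, he₂, he₀]; ring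
  have hσ₁ : σ e₁ = e₁ := by rw [he₁, map_sub, map_one, hσa]
  have hσ₂ : σ e₂ = e₂ := by rw [he₂, map_mul, map_sub, map_one, hσa, hσb]
  have hσ₀ : σ e₀ = e₀ := by rw [he₀, map_mul, hσa, hσb]
  have h11 : e₁ * e₁ = e₁ := by rw [he₁]; linear_combination ha2
  have h22 : e₂ * e₂ = e₂ := by
    rw [he₂]; linear_combination (1 - b ^ m) ^ 2 * ha2 + a ^ m * hb2
  have h12 : e₁ * e₂ = 0 := by rw [he₁, he₂]; linear_combination (b ^ m - 1) * ha2
  have h10 : e₁ * e₀ = 0 := by rw [he₁, he₀]; linear_combination -(b ^ m) * ha2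
  have h20 : e₂ * e₀ = 0 := by
    rw [he₂, he₀]; linear_combination (b ^ m - b ^ m * b ^ m) * ha2 - a ^ m * hb2
  have hg1 : G * e₁ = e₁ := by rw [he₁, ha] at *; linear_combination -ha1
  have hg2 : G * e₂ = -e₂ := by rw [he₂, hb] at *; linear_combination -a ^ m * hb1
  -- the part where the involution moves the residue fields
  set I : Ideal A := Ideal.span {e₁ + e₂} with hI
  have hσI : I = I.map (σ : A →+* A) := by
    rw [hI, Ideal.map_span, Set.image_singleton]
    simp [map_add, hσ₁, hσ₂]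
  let σ' : A ⧸ I ≃+* A ⧸ I := Ideal.quotientEquiv I I σ hσI
  have hσ' : ∀ x, σ' (Ideal.Quotient.mk I x) = Ideal.Quotient.mk I (σ x) := fun x =>
    Ideal.quotientEquiv_mk I I σ hσI x
  have hone : Ideal.Quotient.mk I e₀ = 1 := by
    rw [← map_one (Ideal.Quotient.mk I), Ideal.Quotient.eq, hI, Ideal.mem_span_singleton']
    exact ⟨-1, by linear_combination -hsum⟩
  have hns' : ∃ x, IsUnit (x - σ' x) := by
    refine ⟨Ideal.Quotient.mk I G, IsUnit.of_mul_eq_one (Ideal.Quotient.mk I (G * (a * b) ^ (m - 1))) ?_⟩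
    rw [hσ', ← map_sub, ← map_mul, ← hone]
    congr 1
    rw [he₀, ← mul_pow, show (G - σ G) * (G * (a * b) ^ (m - 1)) = (a * b) * (a * b) ^ (m - 1) by
      rw [ha, hb]; linear_combination -((G - 1) * (G - -1)) ^ (m - 1) * hGinv, ← pow_succ',
      Nat.sub_add_cancel (by omega)]
  have hHu : IsUnit HA := by
    obtain ⟨y, hy⟩ := (Finite.injective_iff_surjective (f := fun x : A => HA * x)).1 (fun x y hxy => by
      refine Subtype.ext ?_
      have hu : IsUnit H := by
        refine IsUnit.of_mul_eq_one ((↑S⁻¹ : M) * adj (↑S⁻¹ : M)) ?_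
        rw [hH, mul_assoc, ← mul_assoc (S : M), Units.mul_inv, one_mul, ← adj_mul, Units.inv_mul, adj_one]
      exact hu.mul_left_cancel (congrArg Subtype.val hxy)) 1
    exact IsUnit.of_mul_eq_one y hy
  obtain ⟨c', hc'⟩ := SemiUnitary.exists_norm_eq σ'
    (fun x => by obtain ⟨x, rfl⟩ := Ideal.Quotient.mk_surjective x; rw [hσ', hσ', hσσ])
    hns' (hHu.map (Ideal.Quotient.mk I)) (by rw [hσ']; exact congrArg _ (Subtype.ext hadjH))
  obtain ⟨c₀, hc₀⟩ := Ideal.Quotient.mk_surjective (c' : A ⧸ I)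
  have hc₀' : σ c₀ * c₀ * e₀ = HA * e₀ := by
    rw [← hc₀, hσ', ← map_mul, Ideal.Quotient.eq, hI, Ideal.mem_span_singleton'] at hc'
    obtain ⟨r, hr⟩ := hc'
    linear_combination (-e₀) * hr + r * h10 + r * h20
  -- the two corners
  have hcommA : ∀ x y : A, (x : M) * y = y * x := fun x y => congrArg Subtype.val (mul_comm x y)
  obtain ⟨c₁, hc1e, he1c, hc1⟩ := exists_corner (S := (S : M)) (congrArg Subtype.val h11)
    (congrArg Subtype.val hσ₁) S.isUnit (hcommA HA e₁)
  obtain ⟨c₂, hc2e, he2c, hc2⟩ := exists_corner (S := (S : M)) (congrArg Subtype.val h22)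
    (congrArg Subtype.val hσ₂) S.isUnit (hcommA HA e₂)
  have hg1c : (g : M) * c₁ = c₁ * g := by
    have l1 : (g : M) * e₁ = e₁ := congrArg Subtype.val hg1
    have l2 : (e₁ : M) * g = e₁ := (hcommA e₁ G).trans l1
    calc (g : M) * c₁ = (g : M) * e₁ * c₁ := by rw [mul_assoc, he1c]
      _ = c₁ * e₁ := by rw [l1, he1c, hc1e]
      _ = c₁ * e₁ * g := by rw [mul_assoc, l2]
      _ = _ := by rw [hc1e]
  have hg2c : (g : M) * c₂ = c₂ * g := by
    have l1 : (g : M) * e₂ = -(e₂ : M) := congrArg Subtype.val hg2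
    have l2 : (e₂ : M) * g = -(e₂ : M) := (hcommA e₂ G).trans l1
    calc (g : M) * c₂ = (g : M) * e₂ * c₂ := by rw [mul_assoc, he2c]
      _ = -(c₂ * e₂) := by rw [l1, neg_mul, he2c, hc2e]
      _ = c₂ * e₂ * g := by rw [mul_assoc, l2, mul_neg]
      _ = _ := by rw [hc2e]
  set z : M := ((c₀ * e₀ : A) : M) with hz
  set c : M := z + c₁ + c₂ with hc
  have hze : z = (e₀ : M) * z := by
    rw [hz, ← Subalgebra.coe_mul]
    congr 1
    have h00 : e₀ * e₀ = e₀ := by linear_combination e₀ * hsum - h10 - h20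
    linear_combination -c₀ * h00
  have ho : ∀ {x y : A} {u v : M}, σ x = x → x * y = 0 → (x : M) * u = u → (y : M) * v = v → adj u * v = 0 := by
    intro x y u v hx hxy hu hv
    rw [← hu, ← hv, adj_mul, show adj (x : M) = x from congrArg Subtype.val hx, mul_assoc, ← mul_assoc (x : M),
      show (x : M) * y = 0 from congrArg Subtype.val hxy, zero_mul, mul_zero]
  have hcc : adj c * c = H := by
    rw [hc, adj_add, adj_add, add_mul, add_mul, mul_add, mul_add, mul_add, mul_add, mul_add, mul_add,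
      ho hσ₀ (by rw [mul_comm, h10]) hze.symm he1c, ho hσ₀ (by rw [mul_comm, h20]) hze.symm he2c,
      ho hσ₁ h10 he1c hze.symm, ho hσ₁ h12 he1c he2c, ho hσ₂ h20 he2c hze.symm,
      ho hσ₂ (by rw [mul_comm, h12]) he2c he1c, hc1, hc2]
    have h0 : adj z * z = ((HA * e₀ : A) : M) := by
      rw [hz]
      show ((σ (c₀ * e₀) * (c₀ * e₀) : A) : M) = _
      congr 1
      rw [map_mul, hσ₀]
      have h00 : e₀ * e₀ = e₀ := by linear_combination e₀ * hsum - h10 - h20
      linear_combination hc₀' + σ c₀ * c₀ * h00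
    have e : ((HA * (e₁ + e₂ + e₀) : A) : M) = H := by rw [hsum, mul_one]
    rw [h0, ← hH]
    simp only [HA, Subalgebra.coe_mul, Subalgebra.coe_add, mul_add] at e ⊢
    refine Eq.trans ?_ e
    abel
  have hcg : c * g = g * c := by
    rw [hc, add_mul, add_mul, mul_add, mul_add, hg1c, hg2c,
      show z * g = g * z from hcommA (c₀ * e₀) G]
  have hcu : IsUnit c := by
    rw [Matrix.isUnit_iff_isUnit_det]
    have h1 : IsUnit H.det := by
      refine (Matrix.isUnit_iff_isUnit_det H).1 ?_
      refine IsUnit.of_mul_eq_one ((↑S⁻¹ : M) * adj (↑S⁻¹ : M)) ?_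
      rw [hH, mul_assoc, ← mul_assoc (S : M), Units.mul_inv, one_mul, ← adj_mul, Units.inv_mul, adj_one]
    rw [← hcc, Matrix.det_mul] at h1
    exact isUnit_of_mul_isUnit_right h1
  obtain ⟨C, hC⟩ := hcu
  refine ⟨S * C⁻¹, ?_, ?_⟩
  · rw [Units.val_mul, adj_mul, mul_assoc, ← mul_assoc (adj (S : M)), ← hH, ← hcc, ← hC, mul_assoc,
      Units.mul_inv, mul_one, ← adj_mul, Units.mul_inv, adj_one]
  · have hCg : C * g = g * C := Units.ext (by rw [Units.val_mul, Units.val_mul, hC, hcg])
    calc S * C⁻¹ * g * (S * C⁻¹)⁻¹ = S * (C⁻¹ * (g * C)) * S⁻¹ := by group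
      _ = h := by rw [← hCg, inv_mul_cancel_left, hS]

end Cfsg.Agent.SemiSymp
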